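import Mathlib
import Cfsg.Agent.Lib.Helper78.S4415.Defs

/-!
# S4415, package [MON] (the monomial case): interface of the sub-packages

Only definitions and package statements (`Prop`s).  Notation: `ρ g e_i = ε g i • e_{σ g i}`.
-/

set_option autoImplicit false

namespace Cfsg.Agent.Lib.Helper82.S4415

open Cfsg.Agent.Lib.Helper78.S4415

universe u v w

section defs

variable {G : Type u} [Group G] {V : Type v} [AddCommGroup V] [Module (ZMod 3) V]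

/-- `c` is a 3-cycle `i₀ → i₁ → i₂ → i₀`, given explicitly. -/
def Cyc3 {ι : Type w} (c : Equiv.Perm ι) : Prop :=
  ∃ i₀ i₁ i₂ : ι, i₀ ≠ i₁ ∧ i₁ ≠ i₂ ∧ i₀ ≠ i₂ ∧ c i₀ = i₁ ∧ c i₁ = i₂ ∧ c i₂ = i₀ ∧
    ∀ j : ι, j ≠ i₀ → j ≠ i₁ → j ≠ i₂ → c j = j

/-- Monomial data: a basis `e` permuted by `G` up to signs (`ρ g e_i = ε g i • e_{σ g i}`,
`ε = ±1`), `G` transitive on the index set, `N` acting trivially on it, `σ b` a 3-cycle. -/
def MonoData {ι : Type w} (ρ : Representation (ZMod 3) G V) (N : Subgroup G) (b : G)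
    (e : Module.Basis ι (ZMod 3) V) (σ : G →* Equiv.Perm ι) (ε : G → ι → ZMod 3) : Prop :=
  (∀ g i, ρ g (e i) = ε g i • e (σ g i)) ∧ (∀ g i, ε g i = 1 ∨ ε g i = -1) ∧
  (∀ i j, ∃ g, σ g i = j) ∧ (∀ x ∈ N, σ x = 1) ∧ Cyc3 (σ b)

/-- Signed permutation data: `g ↦ (σ g, ε g)` embeds `G` in a group of signed permutations. -/
def SP {ι : Type w} (σ : G →* Equiv.Perm ι) (ε : G → ι → ZMod 3) : Prop :=
  (∀ g i, ε g i = 1 ∨ ε g i = -1) ∧
  (∀ g h i, ε (g * h) i = ε h i * ε g (σ h i)) ∧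
  (∀ g, σ g = 1 → (∀ i, ε g i = 1) → g = 1)

/-- Weight facts for a vector `w`: `w ≠ 0` is an `N`-weight vector, its `N`-weight space is the
line `F w`, `b w ≠ ± w`, and every `N`-weight vector lies on one of the lines `F w`, `F b w`,
`F b² w` or is fixed by `b`. -/
def WFacts (ρ : Representation (ZMod 3) G V) (N : Subgroup G) (b : G) (w : V) : Prop :=
  w ≠ 0 ∧
  (∀ x ∈ N, ρ x w = w ∨ ρ x w = -w) ∧
  (∀ u : V, (∀ x ∈ N, (ρ x w = w → ρ x u = u) ∧ (ρ x w = -w → ρ x u = -u)) →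
    ∃ a : ZMod 3, u = a • w) ∧
  (ρ b w ≠ w ∧ ρ b w ≠ -w) ∧
  (∀ u : V, (∀ x ∈ N, ρ x u = u ∨ ρ x u = -u) →
    (∃ a : ZMod 3, u = a • w) ∨ (∃ a : ZMod 3, u = a • ρ b w) ∨
      (∃ a : ZMod 3, u = a • ρ b (ρ b w)) ∨ ρ b u = u)

/-- Pure permutation hypotheses: `K ≤ Perm (Fin n)` has no element of order 3, is normalized by
the 3-cycle `c`, and `K⟨c⟩` is transitive. -/
def PermHyp {n : ℕ} (K : Subgroup (Equiv.Perm (Fin n))) (c : Equiv.Perm (Fin n)) : Prop :=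
  Cyc3 c ∧ (∀ k ∈ K, c * k * c⁻¹ ∈ K) ∧ (∀ k ∈ K, k ^ 3 = 1 → k = 1) ∧
  (∀ i j, ∃ k ∈ K, ∃ m : ℕ, (k * c ^ m) i = j)

/-- `d` is an even sign vector. -/
def EvenSign (d : Fin 4 → ZMod 3) : Prop := (∀ i, d i = 1 ∨ d i = -1) ∧ ∏ i, d i = 1

/-- `p` is the identity or a fixed-point-free involution. -/
def OneOrFpf {n : ℕ} (p : Equiv.Perm (Fin n)) : Prop := p = 1 ∨ ∀ i, p i ≠ i ∧ p (p i) = i

end defs

/-! ## Sub-packages of [MON] -/

/-- [MON-Q] a four-group inside `N`, normalized but not centralized by `b`. -/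
def PkgMonQ : Prop :=
  ∀ {G : Type u} [Group G] (N : Subgroup G) (b : G), b ^ 3 = 1 → N.Normal →
    (∀ x ∈ N, ∀ y ∈ N, x * y = y * x) → (∀ x ∈ N, x ^ 2 = 1) → (∃ x ∈ N, b * x ≠ x * b) →
    ∃ Q' : Subgroup G, Q' ≤ N ∧ Nat.card Q' = 4 ∧ (∀ q ∈ Q', q * q = 1) ∧
      (∀ q ∈ Q', b * q * b⁻¹ ∈ Q') ∧ (∃ q ∈ Q', b * q * b⁻¹ ≠ q)

/-- [MON-WF] weight facts from a frame of a four-group `Q' ≤ N`, `N` commutative. -/
def PkgMonWF : Prop :=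
  ∀ {G : Type u} [Group G] {V : Type v} [AddCommGroup V] [Module (ZMod 3) V]
    (ρ : Representation (ZMod 3) G V) (N : Subgroup G) (b : G) (Q' : Subgroup G),
    (∀ x ∈ N, ∀ y ∈ N, x * y = y * x) → Q' ≤ N → Frame ρ b Q' → ∃ w : V, WFacts ρ N b w

/-- [MON-IND] non-zero `N`-weight vectors with pairwise different characters are linearly
independent. -/
def PkgMonInd : Prop :=
  ∀ {G : Type u} [Group G] {V : Type v} [AddCommGroup V] [Module (ZMod 3) V]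
    (ρ : Representation (ZMod 3) G V) (N : Subgroup G) {ι : Type u} (f : ι → V),
    (∀ i, f i ≠ 0) → (∀ i, ∀ x ∈ N, ρ x (f i) = f i ∨ ρ x (f i) = -f i) →
    (∀ i j, i ≠ j → ∃ x ∈ N, (ρ x (f i) = f i ∧ ρ x (f j) = -f j) ∨
      (ρ x (f i) = -f i ∧ ρ x (f j) = f j)) →
    LinearIndependent (ZMod 3) f

/-- [MON-ORB] the monomial structure on the orbit of the line `F w`
(index type `G ⧸ H`, `H` the stabilizer of the line). -/
def PkgMonOrb : Prop :=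
  ∀ {G : Type u} [Group G] [Finite G] {V : Type v} [AddCommGroup V] [Module (ZMod 3) V]
    (ρ : Representation (ZMod 3) G V) (N : Subgroup G) (b : G) (w : V),
    (∀ M : Submodule (ZMod 3) V, (∀ g : G, ∀ v ∈ M, ρ g v ∈ M) → M = ⊥ ∨ M = ⊤) →
    N.Normal → b ^ 3 = 1 → WFacts ρ N b w →
    ∃ (ι : Type u) (_ : Finite ι) (e : Module.Basis ι (ZMod 3) V) (σ : G →* Equiv.Perm ι)
      (ε : G → ι → ZMod 3), MonoData ρ N b e σ ε

/-- [MON-REIX] reindexing by `Fin n`. -/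
def PkgMonReix : Prop :=
  ∀ {G : Type u} [Group G] {V : Type v} [AddCommGroup V] [Module (ZMod 3) V]
    (ρ : Representation (ZMod 3) G V) (N : Subgroup G) (b : G) (ι : Type u) [Finite ι]
    (e : Module.Basis ι (ZMod 3) V) (σ : G →* Equiv.Perm ι) (ε : G → ι → ZMod 3),
    MonoData ρ N b e σ ε →
    ∃ (n : ℕ) (e' : Module.Basis (Fin n) (ZMod 3) V) (σ' : G →* Equiv.Perm (Fin n))
      (ε' : G → Fin n → ZMod 3), MonoData ρ N b e' σ' ε'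

/-- [MON-SP] a faithful monomial representation gives signed permutation data. -/
def PkgMonSP : Prop :=
  ∀ {G : Type u} [Group G] {V : Type v} [AddCommGroup V] [Module (ZMod 3) V]
    (ρ : Representation (ZMod 3) G V) (N : Subgroup G) (b : G) {n : ℕ}
    (e : Module.Basis (Fin n) (ZMod 3) V) (σ : G →* Equiv.Perm (Fin n)) (ε : G → Fin n → ZMod 3),
    Function.Injective ρ → MonoData ρ N b e σ ε → SP σ ε

/-- [MON-PROD] the sign product is trivial on `R = ⁅R, ⟨b⟩⁆`. -/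
def PkgMonProd : Prop :=
  ∀ {G : Type u} [Group G] (R : Subgroup G) (b : G) {n : ℕ}
    (σ : G →* Equiv.Perm (Fin n)) (ε : G → Fin n → ZMod 3),
    SP σ ε → ⁅R, Subgroup.zpowers b⁆ = R → ∀ r ∈ R, ∏ i, ε r i = 1

/-- [MON-PRED] reduction of the permutation lemma to `K = σ(R)`, `c = σ b`. -/
def PkgMonPRed : Prop :=
  ∀ {G : Type u} [Group G] [Finite G] (R : Subgroup G) (b : G) {n : ℕ}
    (σ : G →* Equiv.Perm (Fin n)),
    R.Normal → (Nat.card R).Coprime 3 → R ⊔ Subgroup.zpowers b = ⊤ →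
    (∀ i j, ∃ g, σ g i = j) → Cyc3 (σ b) → PermHyp (R.map σ) (σ b)

/-- [MON-PA] the degree is 3 or 4. -/
def PkgMonPA : Prop :=
  ∀ {n : ℕ} (K : Subgroup (Equiv.Perm (Fin n))) (c : Equiv.Perm (Fin n)),
    PermHyp K c → n = 3 ∨ n = 4

/-- [MON-PB] degree 3: `K = 1`. -/
def PkgMonPB : Prop :=
  ∀ (K : Subgroup (Equiv.Perm (Fin 3))) (c : Equiv.Perm (Fin 3)),
    PermHyp K c → ∀ k ∈ K, k = 1

/-- [MON-PC] degree 4: the elements of `K` are `1` or fixed-point-free involutions, and `K` is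
transitive. -/
def PkgMonPC : Prop :=
  ∀ (K : Subgroup (Equiv.Perm (Fin 4))) (c : Equiv.Perm (Fin 4)),
    PermHyp K c → (∀ k ∈ K, OneOrFpf k) ∧ ∀ i j, ∃ k ∈ K, k i = j

/-- [MON-3] degree 3: `R` is a four-group. -/
def PkgMon3 : Prop :=
  ∀ {G : Type u} [Group G] [Finite G] (R Q : Subgroup G)
    (σ : G →* Equiv.Perm (Fin 3)) (ε : G → Fin 3 → ZMod 3),
    SP σ ε → (∀ r ∈ R, σ r = 1) → (∀ r ∈ R, ∏ i, ε r i = 1) → Q ≤ R → Nat.card Q = 4 →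
    Cfsg.IsElementaryAbelian 2 R ∧ Nat.card ↥R = 4

/-- [MON-4S] degree 4: `N` realizes every even sign vector. -/
def PkgMon4S : Prop :=
  ∀ {G : Type u} [Group G] [Finite G] (R N : Subgroup G) (b : G)
    (σ : G →* Equiv.Perm (Fin 4)) (ε : G → Fin 4 → ZMod 3),
    SP σ ε → N ≤ R → N.Normal → (∀ x ∈ N, σ x = 1) → (∃ x ∈ N, b * x ≠ x * b) → Cyc3 (σ b) →
    (∀ i j, ∃ r ∈ R, σ r i = j) → (∀ r ∈ R, ∏ i, ε r i = 1) →
    ∀ d : Fin 4 → ZMod 3, EvenSign d → ∃ x ∈ N, ∀ i, ε x i = d i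

/-- [MON-4C] degree 4: `|R| = 32`. -/
def PkgMon4C : Prop :=
  ∀ {G : Type u} [Group G] [Finite G] (R : Subgroup G)
    (σ : G →* Equiv.Perm (Fin 4)) (ε : G → Fin 4 → ZMod 3),
    SP σ ε → (∀ r ∈ R, OneOrFpf (σ r)) → (∀ i j, ∃ r ∈ R, σ r i = j) →
    (∀ r ∈ R, ∏ i, ε r i = 1) →
    (∀ d : Fin 4 → ZMod 3, EvenSign d → ∃ x ∈ R, σ x = 1 ∧ ∀ i, ε x i = d i) →
    Nat.card ↥R = 32

/-- [MON-4SQ] degree 4: squares lie in `{1, z}`. -/
def PkgMon4SQ : Prop :=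
  ∀ {G : Type u} [Group G] (R : Subgroup G)
    (σ : G →* Equiv.Perm (Fin 4)) (ε : G → Fin 4 → ZMod 3) (z : G),
    SP σ ε → (∀ r ∈ R, OneOrFpf (σ r)) → (∀ r ∈ R, ∏ i, ε r i = 1) →
    σ z = 1 → (∀ i, ε z i = -1) → ∀ x ∈ R, x * x = 1 ∨ x * x = z

/-- [MON-4COMM] degree 4: commutators lie in `{1, z}`. -/
def PkgMon4Comm : Prop :=
  ∀ {G : Type u} [Group G] (R : Subgroup G)
    (σ : G →* Equiv.Perm (Fin 4)) (ε : G → Fin 4 → ZMod 3) (z : G),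
    SP σ ε → (∀ r ∈ R, OneOrFpf (σ r)) → (∀ r ∈ R, ∏ i, ε r i = 1) →
    σ z = 1 → (∀ i, ε z i = -1) → ∀ x ∈ R, ∀ y ∈ R, x * y = y * x ∨ x * y = z * y * x

/-- [MON-4CEN] degree 4: the centre of `R` is `{1, z}`. -/
def PkgMon4Cen : Prop :=
  ∀ {G : Type u} [Group G] (R : Subgroup G)
    (σ : G →* Equiv.Perm (Fin 4)) (ε : G → Fin 4 → ZMod 3) (z : G),
    SP σ ε → (∀ r ∈ R, OneOrFpf (σ r)) → (∀ i j, ∃ r ∈ R, σ r i = j) →
    (∀ d : Fin 4 → ZMod 3, EvenSign d → ∃ x ∈ R, σ x = 1 ∧ ∀ i, ε x i = d i) →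
    σ z = 1 → (∀ i, ε z i = -1) →
    ∀ x ∈ R, (∀ y ∈ R, x * y = y * x) → x = 1 ∨ x = z

end Cfsg.Agent.Lib.Helper82.S4415
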