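import Mathlib
import Cfsg.Agent.Lib.Helper82.S4415.MonDefs

/-!
# S4415, package [MON]: assembly from the sub-packages
-/

set_option autoImplicit false

namespace Cfsg.Agent.Lib.Helper82.S4415

open Cfsg.Agent.Lib.Helper78.S4415

universe u v

theorem pkgMon_of (hFrame : PkgFrame.{u, v}) (hQ : PkgMonQ.{u}) (hWF : PkgMonWF.{u, v})
    (hOrb : PkgMonOrb.{u, v}) (hReix : PkgMonReix.{u, v}) (hSP : PkgMonSP.{u, v})
    (hProd : PkgMonProd.{u}) (hPRed : PkgMonPRed.{u}) (hPA : PkgMonPA) (hPB : PkgMonPB)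
    (hPC : PkgMonPC) (h3 : PkgMon3.{u}) (h4S : PkgMon4S.{u}) (h4C : PkgMon4C.{u})
    (h4SQ : PkgMon4SQ.{u}) (h4Comm : PkgMon4Comm.{u}) (h4Cen : PkgMon4Cen.{u}) :
    PkgMon.{u, v} := by
  intro G _ _ V _ _ _ ρ R b Q hS hfr N hNR hNn hab hexp hmove
  obtain ⟨Q', hQ'N, hQ'4, hQ'2, hQ'norm, hQ'move⟩ := hQ N b hS.b3 hNn hab hexp hmove
  have hfr' : Frame ρ b Q' :=
    hFrame ρ b Q' hS.faith hS.b3 hQ'4 hQ'2 hQ'norm hQ'move hS.jordan
  obtain ⟨w, hw⟩ := hWF ρ N b Q' hab hQ'N hfr'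
  obtain ⟨ι, _, e0, σ0, ε0, hM0⟩ := hOrb ρ N b w hS.irr hNn hS.b3 hw
  obtain ⟨n, e, σ, ε, hM⟩ := hReix ρ N b ι e0 σ0 ε0 hM0
  have hsp := hSP ρ N b e σ ε hS.faith hM
  have hprod := hProd R b σ ε hsp hS.comm
  obtain ⟨hmono, hsign, htrans, hNtriv, hcyc⟩ := hM
  have hperm := hPRed R b σ hS.normal hS.cop hS.gen htrans hcyc
  rcases hPA (R.map σ) (σ b) hperm with rfl | rfl
  · -- degree 3
    left
    have hR1 : ∀ r ∈ R, σ r = 1 := fun r hr =>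
      hPB (R.map σ) (σ b) hperm (σ r) (Subgroup.mem_map_of_mem σ hr)
    exact h3 R Q σ ε hsp hR1 hprod hS.QR hS.Q4
  · -- degree 4
    right
    obtain ⟨hfpf', htr'⟩ := hPC (R.map σ) (σ b) hperm
    have hfpf : ∀ r ∈ R, OneOrFpf (σ r) := fun r hr =>
      hfpf' (σ r) (Subgroup.mem_map_of_mem σ hr)
    have hRtrans : ∀ i j, ∃ r ∈ R, σ r i = j := by
      intro i j
      obtain ⟨k, ⟨r, hr, rfl⟩, hk⟩ := htr' i j
      exact ⟨r, hr, hk⟩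
    have hsurjN := h4S R N b σ ε hsp hNR hNn hNtriv hmove hcyc hRtrans hprod
    have hsurj : ∀ d : Fin 4 → ZMod 3, EvenSign d → ∃ x ∈ R, σ x = 1 ∧ ∀ i, ε x i = d i := by
      intro d hd
      obtain ⟨x, hx, h⟩ := hsurjN d hd
      exact ⟨x, hNR hx, hNtriv x hx, h⟩
    obtain ⟨z, hzR, hσz, hεz⟩ := hsurj (fun _ => -1)
      ⟨fun _ => Or.inr rfl, by decide⟩
    refine ⟨z, hzR, ?_, h4C R σ ε hsp hfpf hRtrans hprod hsurj,
      h4SQ R σ ε z hsp hfpf hprod hσz hεz, h4Comm R σ ε z hsp hfpf hprod hσz hεz,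
      h4Cen R σ ε z hsp hfpf hRtrans hsurj hσz hεz⟩
    have hlin : ρ z = -LinearMap.id := by
      apply e.ext
      intro i
      rw [hmono z i, hεz i, hσz]
      simp
    intro v
    rw [hlin]
    simp

end Cfsg.Agent.Lib.Helper82.S4415
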