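import Mathlib
import Cfsg.Agent.Lib.Helper82.S4415.MonDefs

/-!
# S4415, [MON-PA]: the degree of the monomial structure is 3 or 4
-/

set_option autoImplicit false

namespace Cfsg.Agent.Lib.Helper82.S4415

open Equiv

namespace PA

variable {ι : Type*}

/-- Explicit 3-cycle data. -/
structure C3 (c : Perm ι) (a0 a1 a2 : ι) : Prop where
  h01 : a0 ≠ a1
  h12 : a1 ≠ a2
  h02 : a0 ≠ a2
  c0 : c a0 = a1
  c1 : c a1 = a2
  c2 : c a2 = a0
  fix : ∀ j, j ≠ a0 → j ≠ a1 → j ≠ a2 → c j = j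

/-- Membership in a three-point set. -/
def D3 (i0 i1 i2 y : ι) : Prop := y = i0 ∨ y = i1 ∨ y = i2

variable {c c' : Perm ι} {a0 a1 a2 : ι}

theorem C3.rot (h : C3 c a0 a1 a2) : C3 c a1 a2 a0 :=
  ⟨h.h12, h.h02.symm, h.h01.symm, h.c1, h.c2, h.c0, fun j h1 h2 h0 => h.fix j h0 h1 h2⟩

theorem C3.conj (h : C3 c a0 a1 a2) (k : Perm ι) :
    C3 (k * c * k⁻¹) (k a0) (k a1) (k a2) := by
  refine ⟨fun e => h.h01 (k.injective e), fun e => h.h12 (k.injective e),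
    fun e => h.h02 (k.injective e), ?_, ?_, ?_, ?_⟩
  · simp [Perm.mul_apply, h.c0]
  · simp [Perm.mul_apply, h.c1]
  · simp [Perm.mul_apply, h.c2]
  · intro j h0 h1 h2
    have hj : c (k⁻¹ j) = k⁻¹ j := by
      apply h.fix
      · intro e; apply h0; rw [← e]; simp
      · intro e; apply h1; rw [← e]; simp
      · intro e; apply h2; rw [← e]; simp
    rw [Perm.mul_apply, Perm.mul_apply, hj]
    simp

theorem C3.pow3 (h : C3 c a0 a1 a2) : c ^ 3 = 1 := by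
  ext x
  by_cases h0 : x = a0
  · rw [h0]; simp [pow_succ, Perm.mul_apply, h.c0, h.c1, h.c2]
  by_cases h1 : x = a1
  · rw [h1]; simp [pow_succ, Perm.mul_apply, h.c0, h.c1, h.c2]
  by_cases h2 : x = a2
  · rw [h2]; simp [pow_succ, Perm.mul_apply, h.c0, h.c1, h.c2]
  · simp [pow_succ, Perm.mul_apply, h.fix x h0 h1 h2]

theorem C3.i0 (h : C3 c a0 a1 a2) : c⁻¹ a0 = a2 := Perm.inv_eq_iff_eq.mpr h.c2.symm
theorem C3.i1 (h : C3 c a0 a1 a2) : c⁻¹ a1 = a0 := Perm.inv_eq_iff_eq.mpr h.c0.symm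
theorem C3.i2 (h : C3 c a0 a1 a2) : c⁻¹ a2 = a1 := Perm.inv_eq_iff_eq.mpr h.c1.symm
theorem C3.ifix (h : C3 c a0 a1 a2) (j : ι) (h0 : j ≠ a0) (h1 : j ≠ a1) (h2 : j ≠ a2) :
    c⁻¹ j = j := Perm.inv_eq_iff_eq.mpr (h.fix j h0 h1 h2).symm

theorem C3.exists_from {i0 i1 i2 : ι} (h : C3 c i0 i1 i2) {p : ι} (hp : D3 i0 i1 i2 p) :
    ∃ q r, C3 c p q r ∧ D3 i0 i1 i2 q ∧ D3 i0 i1 i2 r ∧
      ∀ y, D3 i0 i1 i2 y → (y = p ∨ y = q ∨ y = r) := by
  rcases hp with e | e | e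
  · rw [e]
    exact ⟨i1, i2, h, Or.inr (Or.inl rfl), Or.inr (Or.inr rfl), fun y hy => hy⟩
  · rw [e]
    refine ⟨i2, i0, h.rot, Or.inr (Or.inr rfl), Or.inl rfl, fun y hy => ?_⟩
    rcases hy with e' | e' | e'
    · exact Or.inr (Or.inr e')
    · exact Or.inl e'
    · exact Or.inr (Or.inl e')
  · rw [e]
    refine ⟨i0, i1, h.rot.rot, Or.inl rfl, Or.inr (Or.inl rfl), fun y hy => ?_⟩
    rcases hy with e' | e' | e'
    · exact Or.inr (Or.inl e')
    · exact Or.inr (Or.inr e')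
    · exact Or.inl e'

/-- Disjoint supports. -/
theorem disj_case {b0 b1 b2 : ι} (h : C3 c a0 a1 a2) (h' : C3 c' b0 b1 b2)
    (hd : ∀ x, (x = a0 ∨ x = a1 ∨ x = a2) → x ≠ b0 ∧ x ≠ b1 ∧ x ≠ b2) :
    (c⁻¹ * c') ^ 3 = 1 ∧ c⁻¹ * c' ≠ 1 := by
  have hdis : Perm.Disjoint c c' := by
    intro x
    by_cases hx : x = a0 ∨ x = a1 ∨ x = a2
    · right
      obtain ⟨e0, e1, e2⟩ := hd x hx
      exact h'.fix x e0 e1 e2
    · left
      push_neg at hx
      exact h.fix x hx.1 hx.2.1 hx.2.2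
  have hcomm : Commute c⁻¹ c' := hdis.commute.inv_left
  constructor
  · rw [hcomm.mul_pow, inv_pow, h.pow3, h'.pow3]; simp
  · intro e
    have e' : c' = c := by
      have e2 := congrArg (fun t => c * t) e
      simpa using e2
    have h1 : c' a0 = a0 := by
      obtain ⟨e0, e1, e2⟩ := hd a0 (Or.inl rfl)
      exact h'.fix a0 e0 e1 e2
    rw [e', h.c0] at h1
    exact h.h01 h1.symm

/-- Supports meeting in exactly one point. -/
theorem one_case {p q r s t : ι} (h : C3 c p q r) (h' : C3 c' p s t)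
    (hsq : s ≠ q) (hsr : s ≠ r) (htq : t ≠ q) (htr : t ≠ r) :
    (c * c' * c⁻¹ * c'⁻¹) ^ 3 = 1 ∧ c * c' * c⁻¹ * c'⁻¹ ≠ 1 := by
  have hcs : c s = s := h.fix s h'.h01.symm hsq hsr
  have hct : c t = t := h.fix t h'.h02.symm htq htr
  have hc'q : c' q = q := h'.fix q h.h01.symm hsq.symm htq.symm
  have hc'r : c' r = r := h'.fix r h.h02.symm hsr.symm htr.symm
  have hics : c⁻¹ s = s := Perm.inv_eq_iff_eq.mpr hcs.symm
  have hict : c⁻¹ t = t := Perm.inv_eq_iff_eq.mpr hct.symm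
  have hic'q : c'⁻¹ q = q := Perm.inv_eq_iff_eq.mpr hc'q.symm
  have hic'r : c'⁻¹ r = r := Perm.inv_eq_iff_eq.mpr hc'r.symm
  have yp : (c * c' * c⁻¹ * c'⁻¹) p = q := by
    simp [Perm.mul_apply, h'.i0, hict, h'.c2, h.c0]
  have yq : (c * c' * c⁻¹ * c'⁻¹) q = s := by
    simp [Perm.mul_apply, hic'q, h.i1, h'.c0, hcs]
  have ys : (c * c' * c⁻¹ * c'⁻¹) s = p := by
    simp [Perm.mul_apply, h'.i1, h.i0, hc'r, h.c2]
  have yr : (c * c' * c⁻¹ * c'⁻¹) r = r := by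
    simp [Perm.mul_apply, hic'r, h.i2, hc'q, h.c1]
  have yt : (c * c' * c⁻¹ * c'⁻¹) t = t := by
    simp [Perm.mul_apply, h'.i2, hics, h'.c1, hct]
  have yo : ∀ x, x ≠ p → x ≠ q → x ≠ r → x ≠ s → x ≠ t → (c * c' * c⁻¹ * c'⁻¹) x = x := by
    intro x hp hq hr hs ht
    simp [Perm.mul_apply, h'.ifix x hp hs ht, h.ifix x hp hq hr, h'.fix x hp hs ht,
      h.fix x hp hq hr]
  generalize c * c' * c⁻¹ * c'⁻¹ = y at yp yq ys yr yt yo ⊢
  constructor
  · ext x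
    by_cases hp : x = p
    · rw [hp]; simp [pow_succ, Perm.mul_apply, yp, yq, ys]
    by_cases hq : x = q
    · rw [hq]; simp [pow_succ, Perm.mul_apply, yp, yq, ys]
    by_cases hr : x = r
    · rw [hr]; simp [pow_succ, Perm.mul_apply, yr]
    by_cases hs : x = s
    · rw [hs]; simp [pow_succ, Perm.mul_apply, yp, yq, ys]
    by_cases ht : x = t
    · rw [ht]; simp [pow_succ, Perm.mul_apply, yt]
    · simp [pow_succ, Perm.mul_apply, yo x hp hq hr hs ht]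
  · intro e
    rw [e] at yp
    exact h.h01 (by simpa using yp)

end PA

open PA in
theorem pkgMonPA : PkgMonPA := by
  intro n K c hyp
  obtain ⟨⟨i0, i1, i2, h01, h12, h02, hc0, hc1, hc2, hfix⟩, hnorm, hno3, htrans⟩ := hyp
  have hC : C3 c i0 i1 i2 := ⟨h01, h12, h02, hc0, hc1, hc2, hfix⟩
  have hc3 : c ^ 3 = 1 := hC.pow3
  have hcinv : c⁻¹ = c * c := by
    rw [inv_eq_iff_mul_eq_one, ← hc3]
    simp [pow_succ, mul_assoc]
  have hcc : c⁻¹ * c⁻¹ = c := by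
    rw [hcinv]
    calc c * c * (c * c) = c ^ 3 * c := by simp [pow_succ, mul_assoc]
      _ = c := by rw [hc3, one_mul]
  have hnorm' : ∀ k ∈ K, c⁻¹ * k * c ∈ K := by
    intro k hk
    have h1 := hnorm _ (hnorm k hk)
    have e : c * (c * k * c⁻¹) * c⁻¹ = c⁻¹ * k * c := by
      calc c * (c * k * c⁻¹) * c⁻¹ = (c * c) * k * (c⁻¹ * c⁻¹) := by group
        _ = c⁻¹ * k * c := by rw [← hcinv, hcc]
    rw [← e]
    exact h1
  -- the key lemma
  have hL : ∀ k ∈ K, ∀ a0 a1 a2, C3 c a0 a1 a2 → D3 i0 i1 i2 a0 → D3 i0 i1 i2 a1 →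
      D3 i0 i1 i2 a2 → ¬ D3 i0 i1 i2 (k a0) → D3 i0 i1 i2 (k a1) ∧ D3 i0 i1 i2 (k a2) := by
    intro k hk a0 a1 a2 ha d0 d1 d2 hn0
    have ha' := ha.conj k
    have hu : c⁻¹ * (k * c * k⁻¹) ∈ K := by
      have e : c⁻¹ * (k * c * k⁻¹) = (c⁻¹ * k * c) * k⁻¹ := by group
      rw [e]
      exact K.mul_mem (hnorm' k hk) (K.inv_mem hk)
    have hy : c * (k * c * k⁻¹) * c⁻¹ * (k * c * k⁻¹)⁻¹ ∈ K := by
      have e : c * (k * c * k⁻¹) * c⁻¹ * (k * c * k⁻¹)⁻¹ =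
          (c * k * c⁻¹) * (c * (c * k⁻¹ * c⁻¹) * c⁻¹) * (c * k * c⁻¹) * k⁻¹ := by group
      rw [e]
      exact K.mul_mem (K.mul_mem (K.mul_mem (hnorm k hk)
        (hnorm _ (hnorm _ (K.inv_mem hk)))) (hnorm k hk)) (K.inv_mem hk)
    by_cases h1 : D3 i0 i1 i2 (k a1)
    · by_cases h2 : D3 i0 i1 i2 (k a2)
      · exact ⟨h1, h2⟩
      · exfalso
        obtain ⟨q, r, hpqr, dq, dr, -⟩ := hC.exists_from h1
        have hrot : C3 (k * c * k⁻¹) (k a1) (k a2) (k a0) := ha'.rot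
        have hsq : k a2 ≠ q := fun e => h2 (by rw [e]; exact dq)
        have hsr : k a2 ≠ r := fun e => h2 (by rw [e]; exact dr)
        have htq : k a0 ≠ q := fun e => hn0 (by rw [e]; exact dq)
        have htr : k a0 ≠ r := fun e => hn0 (by rw [e]; exact dr)
        obtain ⟨e1, e2⟩ := one_case hpqr hrot hsq hsr htq htr
        exact e2 (hno3 _ hy e1)
    · by_cases h2 : D3 i0 i1 i2 (k a2)
      · exfalso
        obtain ⟨q, r, hpqr, dq, dr, -⟩ := hC.exists_from h2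
        have hrot : C3 (k * c * k⁻¹) (k a2) (k a0) (k a1) := ha'.rot.rot
        have hsq : k a0 ≠ q := fun e => hn0 (by rw [e]; exact dq)
        have hsr : k a0 ≠ r := fun e => hn0 (by rw [e]; exact dr)
        have htq : k a1 ≠ q := fun e => h1 (by rw [e]; exact dq)
        have htr : k a1 ≠ r := fun e => h1 (by rw [e]; exact dr)
        obtain ⟨e1, e2⟩ := one_case hpqr hrot hsq hsr htq htr
        exact e2 (hno3 _ hy e1)
      · exfalso
        have hd : ∀ x, (x = a0 ∨ x = a1 ∨ x = a2) → x ≠ k a0 ∧ x ≠ k a1 ∧ x ≠ k a2 := by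
          intro x hx
          have dx : D3 i0 i1 i2 x := by
            rcases hx with e | e | e
            · rw [e]; exact d0
            · rw [e]; exact d1
            · rw [e]; exact d2
          exact ⟨fun e => hn0 (by rw [← e]; exact dx), fun e => h1 (by rw [← e]; exact dx),
            fun e => h2 (by rw [← e]; exact dx)⟩
        obtain ⟨e1, e2⟩ := disj_case ha ha' hd
        exact e2 (hno3 _ hu e1)
  -- 3 ≤ n
  have hn3 : 3 ≤ n := by
    have h3 : ({i0, i1, i2} : Finset (Fin n)).card = 3 := by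
      rw [Finset.card_insert_of_notMem, Finset.card_insert_of_notMem, Finset.card_singleton]
      · simpa using h12
      · simp [h01, h02]
    have h2 := Finset.card_le_univ ({i0, i1, i2} : Finset (Fin n))
    rw [h3, Fintype.card_fin] at h2
    exact h2
  by_contra hcon
  have hn5 : 5 ≤ n := by omega
  -- two points outside
  have hout : ∃ p4 p5 : Fin n, ¬ D3 i0 i1 i2 p4 ∧ ¬ D3 i0 i1 i2 p5 ∧ p4 ≠ p5 := by
    have hcard : 1 < (Finset.univ \ ({i0, i1, i2} : Finset (Fin n))).card := by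
      have h1 := Finset.card_sdiff_add_card_eq_card
        (Finset.subset_univ ({i0, i1, i2} : Finset (Fin n)))
      have h2 : ({i0, i1, i2} : Finset (Fin n)).card ≤ 3 := Finset.card_le_three
      rw [Finset.card_univ, Fintype.card_fin] at h1
      omega
    obtain ⟨p4, hp4, p5, hp5, hne⟩ := Finset.one_lt_card.mp hcard
    refine ⟨p4, p5, ?_, ?_, hne⟩
    · simp only [Finset.mem_sdiff, Finset.mem_univ, Finset.mem_insert, Finset.mem_singleton,
        true_and] at hp4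
      exact hp4
    · simp only [Finset.mem_sdiff, Finset.mem_univ, Finset.mem_insert, Finset.mem_singleton,
        true_and] at hp5
      exact hp5
  obtain ⟨p4, p5, hp4, hp5, hne⟩ := hout
  have hDc : ∀ y, D3 i0 i1 i2 y → D3 i0 i1 i2 (c y) := by
    intro y hy
    rcases hy with e | e | e
    · rw [e, hc0]; exact Or.inr (Or.inl rfl)
    · rw [e, hc1]; exact Or.inr (Or.inr rfl)
    · rw [e, hc2]; exact Or.inl rfl
  have hDpow : ∀ m : ℕ, ∀ y, D3 i0 i1 i2 y → D3 i0 i1 i2 ((c ^ m) y) := by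
    intro m
    induction m with
    | zero => intro y hy; simpa using hy
    | succ m ih =>
      intro y hy
      rw [pow_succ, Perm.mul_apply]
      exact ih _ (hDc y hy)
  obtain ⟨k1, hk1, m1, hkm1⟩ := htrans i0 p4
  obtain ⟨k2, hk2, m2, hkm2⟩ := htrans i0 p5
  obtain ⟨x1, hx1⟩ : ∃ x1, x1 = (c ^ m1) i0 := ⟨_, rfl⟩
  obtain ⟨x2, hx2⟩ : ∃ x2, x2 = (c ^ m2) i0 := ⟨_, rfl⟩
  have dx1 : D3 i0 i1 i2 x1 := by rw [hx1]; exact hDpow m1 i0 (Or.inl rfl)
  have dx2 : D3 i0 i1 i2 x2 := by rw [hx2]; exact hDpow m2 i0 (Or.inl rfl)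
  have hk1x : k1 x1 = p4 := by rw [hx1, ← Perm.mul_apply]; exact hkm1
  have hk2x : k2 x2 = p5 := by rw [hx2, ← Perm.mul_apply]; exact hkm2
  obtain ⟨x1', x1'', hX1, dx1', dx1'', hall1⟩ := hC.exists_from dx1
  obtain ⟨x2', x2'', hX2, dx2', dx2'', hall2⟩ := hC.exists_from dx2
  obtain ⟨ha, hb⟩ := hL k1 hk1 x1 x1' x1'' hX1 dx1 dx1' dx1'' (by rw [hk1x]; exact hp4)
  obtain ⟨he2', he2''⟩ := hL k2 hk2 x2 x2' x2'' hX2 dx2 dx2' dx2'' (by rw [hk2x]; exact hp5)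
  have hk12 : k1⁻¹ * k2 ∈ K := K.mul_mem (K.inv_mem hk1) hk2
  have hnd : ¬ D3 i0 i1 i2 (k1⁻¹ p5) := by
    intro hd
    rcases hall1 _ hd with e | e | e
    · apply hne
      rw [← hk1x, ← e]; simp
    · apply hp5
      have e2 : p5 = k1 x1' := by rw [← e]; simp
      rw [e2]; exact ha
    · apply hp5
      have e2 : p5 = k1 x1'' := by rw [← e]; simp
      rw [e2]; exact hb
  have hn12 : ¬ D3 i0 i1 i2 ((k1⁻¹ * k2) x2) := by
    rw [Perm.mul_apply, hk2x]; exact hnd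
  obtain ⟨hc12, hd12⟩ := hL _ hk12 x2 x2' x2'' hX2 dx2 dx2' dx2'' hn12
  have key : ∀ y, D3 i0 i1 i2 ((k1⁻¹ * k2) y) → D3 i0 i1 i2 (k2 y) →
      k2 y = k1 x1' ∨ k2 y = k1 x1'' := by
    intro y hy1 hy2
    rcases hall1 _ hy1 with e | e | e
    · exfalso
      have e2 : k2 y = p4 := by rw [← hk1x, ← e]; simp [Perm.mul_apply]
      rw [e2] at hy2
      exact hp4 hy2
    · left; rw [← e]; simp [Perm.mul_apply]
    · right; rw [← e]; simp [Perm.mul_apply]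
  have hA := key x2' hc12 he2'
  have hB := key x2'' hd12 he2''
  have hk3K : k1 * (c * (k1⁻¹ * k2) * c⁻¹) ∈ K := K.mul_mem hk1 (hnorm _ hk12)
  have hk3c : ∀ z, (k1 * (c * (k1⁻¹ * k2) * c⁻¹)) (c z) = k1 (c (k1⁻¹ (k2 z))) := by
    intro z; simp [Perm.mul_apply]
  have h3a : (k1 * (c * (k1⁻¹ * k2) * c⁻¹)) x2' = p5 := by
    rw [← hX2.c0, hk3c, hk2x]
    have hfx : c (k1⁻¹ p5) = k1⁻¹ p5 := by
      apply hfix
      · intro e; exact hnd (Or.inl e)
      · intro e; exact hnd (Or.inr (Or.inl e))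
      · intro e; exact hnd (Or.inr (Or.inr e))
    rw [hfx]; simp
  obtain ⟨h3b, h3c⟩ := hL _ hk3K x2' x2'' x2 hX2.rot dx2' dx2'' dx2 (by rw [h3a]; exact hp5)
  have h3b' : (k1 * (c * (k1⁻¹ * k2) * c⁻¹)) x2'' = k1 (c (k1⁻¹ (k2 x2'))) := by
    rw [← hX2.c1, hk3c]
  have h3c' : (k1 * (c * (k1⁻¹ * k2) * c⁻¹)) x2 = k1 (c (k1⁻¹ (k2 x2''))) := by
    rw [← hX2.c2, hk3c]
  have hne2 : k2 x2' ≠ k2 x2'' := fun e => hX2.h12 (k2.injective e)
  rcases hA with eA | eA <;> rcases hB with eB | eB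
  · exact hne2 (eA.trans eB.symm)
  · apply hp4
    have e3 : (k1 * (c * (k1⁻¹ * k2) * c⁻¹)) x2 = p4 := by
      rw [h3c', eB]; simp [hX1.c2, hk1x]
    rw [← e3]; exact h3c
  · apply hp4
    have e3 : (k1 * (c * (k1⁻¹ * k2) * c⁻¹)) x2'' = p4 := by
      rw [h3b', eA]; simp [hX1.c2, hk1x]
    rw [← e3]; exact h3b
  · exact hne2 (eA.trans eB.symm)

end Cfsg.Agent.Lib.Helper82.S4415
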