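import Mathlib
import Cfsg.Agent.Lib.Helper82.S4415.MonDefs

/-!
# S4415, [MON-PRED]: reduction of the permutation lemma to `K = σ(R)`, `c = σ b`
-/

set_option autoImplicit false

namespace Cfsg.Agent.Lib.Helper82.S4415

open Cfsg.Agent.Lib.Helper78.S4415

universe u

theorem pkgMonPRed : PkgMonPRed.{u} := by
  intro G _ _ R b n σ hRn hcop hgen htrans hcyc
  refine ⟨hcyc, ?_, ?_, ?_⟩
  · rintro _ ⟨r, hr, rfl⟩
    refine ⟨b * r * b⁻¹, hRn.conj_mem r hr b, ?_⟩
    simp [map_mul, map_inv]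
  · rintro _ ⟨r, hr, rfl⟩ h3
    have h1 : orderOf (σ r) ∣ 3 := orderOf_dvd_of_pow_eq_one h3
    have h2 : orderOf (σ r) ∣ Nat.card R := by
      have h4 : orderOf r ∣ Nat.card R := by
        have h5 := orderOf_dvd_natCard (⟨r, hr⟩ : R)
        rwa [← Subgroup.orderOf_coe] at h5
      exact (orderOf_map_dvd σ r).trans h4
    have h5 : orderOf (σ r) ∣ 1 := by
      have h6 := Nat.dvd_gcd h2 h1
      rwa [Nat.Coprime.gcd_eq_one hcop] at h6
    exact orderOf_eq_one_iff.mp (Nat.dvd_one.mp h5)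
  · intro i j
    obtain ⟨g, hg⟩ := htrans i j
    have hg' : g ∈ R ⊔ Subgroup.zpowers b := by rw [hgen]; trivial
    rw [← SetLike.mem_coe, Subgroup.normal_mul] at hg'
    obtain ⟨r, hr, y, hy, rfl⟩ := Set.mem_mul.mp hg'
    have hfin : IsOfFinOrder b := isOfFinOrder_of_finite b
    obtain ⟨m, rfl⟩ := (hfin.mem_powers_iff_mem_zpowers.mpr hy)
    refine ⟨σ r, Subgroup.mem_map_of_mem σ hr, m, ?_⟩
    rw [← map_pow, ← map_mul]
    exact hg

end Cfsg.Agent.Lib.Helper82.S4415
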