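import Mathlib
import Cfsg.Agent.Lib.Helper82.S4415.MonMain
import Cfsg.Agent.Lib.Helper82.S4415.MonPRed
import Cfsg.Agent.Lib.Helper82.S4415.MonPA
import Cfsg.Agent.Lib.Helper74.S4415.MonQ
import Cfsg.Agent.Lib.Helper34.S4415.MonWF
import Cfsg.Agent.Lib.Helper83.S4415.MonInd
import Cfsg.Agent.Lib.Helper83.S4415.MonOrb
import Cfsg.Agent.Lib.Helper79.S4415.MonReix
import Cfsg.Agent.Lib.Helper79.S4415.MonSP
import Cfsg.Agent.Lib.Helper25.S4415.MonProd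
import Cfsg.Agent.Lib.Helper25.S4415.MonPB
import Cfsg.Agent.Lib.Helper25.S4415.MonPC
import Cfsg.Agent.Lib.Helper34.S4415.Mon3
import Cfsg.Agent.Lib.Helper74.S4415.Mon4C
import Cfsg.Agent.Lib.Helper13.S4415.Mon4SQ
import Cfsg.Agent.Lib.Helper73.S4415.Mon4Comm
import Cfsg.Agent.Lib.Helper13.S4415.Mon4Cen
import Cfsg.Agent.Lib.Helper73.S4415.Mon4S

/-!
# S4415, package [MON]: final assembly
-/

set_option autoImplicit false

namespace Cfsg.Agent.Lib.Helper82.S4415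

open Cfsg.Agent.Lib.Helper78.S4415

universe u v

/-- [MON] from [FRAME] and [MON-4S]. -/
theorem pkgMon_of4S (hFrame : PkgFrame.{u, v}) (h4S : PkgMon4S.{u}) : PkgMon.{u, v} :=
  pkgMon_of hFrame Cfsg.Agent.Lib.Helper74.S4415.pkgMonQ Cfsg.Agent.Lib.Helper34.S4415.pkgMonWF
    (Cfsg.Agent.Lib.Helper83.S4415.pkgMonOrb Cfsg.Agent.Lib.Helper83.S4415.pkgMonInd)
    Cfsg.Agent.Lib.Helper79.S4415.pkgMonReix Cfsg.Agent.Lib.Helper79.S4415.pkgMonSP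
    Cfsg.Agent.Lib.Helper25.S4415.pkgMonProd pkgMonPRed pkgMonPA
    Cfsg.Agent.Lib.Helper25.S4415.pkgMonPB Cfsg.Agent.Lib.Helper25.S4415.pkgMonPC
    Cfsg.Agent.Lib.Helper34.S4415.pkgMon3 h4S Cfsg.Agent.Lib.Helper74.S4415.pkgMon4C
    Cfsg.Agent.Lib.Helper13.S4415.pkgMon4SQ Cfsg.Agent.Lib.Helper73.S4415.pkgMon4Comm
    Cfsg.Agent.Lib.Helper13.S4415.pkgMon4Cen

/-- [MON] from [FRAME]. -/
theorem pkgMon (hFrame : PkgFrame.{u, v}) : PkgMon.{u, v} :=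
  pkgMon_of4S hFrame Cfsg.Agent.Lib.Helper73.S4415.pkgMon4S

end Cfsg.Agent.Lib.Helper82.S4415
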